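import Cfsg.Agent.H577.Psl34Aut
import Cfsg.Agent.S0249

/-!
# `Few` groups between `PSL(3, 4)` and its automorphism group: conclusion
-/

set_option autoImplicit false
set_option linter.unusedSectionVars false

namespace Cfsg.Agent.H577

open Matrix Subgroup
open Cfsg.Agent.ClassicalGeometry.AutPSL.Root (pr pr_surjective exists_smul_of_pr_eq)
open Cfsg.Agent.ClassicalGeometry.AutPSL.Auto (cj fld lift itr coe_cj coe_fld_apply lift_pr coe_itr itr_mul_itr)
open Cfsg.Agent.ClassicalGeometry.AutPSL.Main (cj_eq_one_of_scalar injective_aux surj_two surj_three not_graph)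

namespace P3

variable {F : Type*} [Field F]

theorem det_ne (A : GL (Fin 3) F) : (A : Matrix (Fin 3) (Fin 3) F).det ≠ 0 := by
  intro h0
  have h1 : (A : Matrix (Fin 3) (Fin 3) F).det * ((A⁻¹ : GL (Fin 3) F) : Matrix (Fin 3) (Fin 3) F).det = 1 := by
    rw [← det_mul, ← Units.val_mul, mul_inv_cancel, Units.val_one, det_one]
  rw [h0, zero_mul] at h1
  exact zero_ne_one h1

/-- changing the matrix without changing the determinant -/
theorem mem_of_det {Y : Subgroup (MulAut (P3 F))} (hY : ∀ x : P3 F, MulAut.conj x ∈ Y) {A B : GL (Fin 3) F}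
    {β : MulAut (SL3 F)} (h : lift (cj A * β) ∈ Y)
    (hs : (B : Matrix (Fin 3) (Fin 3) F).det = (A : Matrix (Fin 3) (Fin 3) F).det) : lift (cj B * β) ∈ Y := by
  have hAi : (A : Matrix (Fin 3) (Fin 3) F).det * ((A⁻¹ : GL (Fin 3) F) : Matrix (Fin 3) (Fin 3) F).det = 1 := by
    rw [← det_mul, ← Units.val_mul, mul_inv_cancel, Units.val_one, det_one]
  let M : SL3 F := ⟨((B * A⁻¹ : GL (Fin 3) F) : Matrix (Fin 3) (Fin 3) F), by
    rw [Units.val_mul, det_mul, hs, hAi]⟩
  have hM : cj B = cj (sg M) * cj A := by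
    rw [← map_mul]
    congr 1
    apply Units.ext
    show (B : Matrix (Fin 3) (Fin 3) F) = ((B * A⁻¹ : GL (Fin 3) F) : Matrix (Fin 3) (Fin 3) F) *
      (A : Matrix (Fin 3) (Fin 3) F)
    rw [← Units.val_mul, inv_mul_cancel_right]
  rw [hM, mul_assoc, map_mul, lift_cj_sg]
  exact Y.mul_mem (hY _) h

theorem pr_em_ne_one {a b c d : F} {h : a * d - b * c = 1} (hb : b ≠ 0) : pr (em a b c d h) ≠ 1 := by
  intro h1
  have h2 : pr (1 : SL3 F) = pr (em a b c d h) := by rw [map_one]; exact h1.symm
  obtain ⟨r, hr⟩ := exists_smul_of_pr_eq h2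
  have h3 : em a b c d h 1 2 = (r • (1 : Matrix (Fin 3) (Fin 3) F)) 1 2 := congrFun (congrFun hr 1) 2
  have h4 : (em a b c d h) 1 2 = b := rfl
  rw [h4, Matrix.smul_apply, one_apply_ne (by decide), smul_zero] at h3
  exact hb h3

theorem orderOf_c3 : orderOf (pr (c3 F)) = 3 := by
  have h3 := Fact.mk Nat.prime_three
  apply orderOf_eq_prime
  · rw [← map_pow, pow_succ, pow_two, c3, em_mul, em_mul]
    have : em (F := F) ((0 * 0 + 1 * -1) * 0 + (0 * 1 + 1 * -1) * -1) ((0 * 0 + 1 * -1) * 1 + (0 * 1 + 1 * -1) * -1)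
      ((-1 * 0 + -1 * -1) * 0 + (-1 * 1 + -1 * -1) * -1) ((-1 * 0 + -1 * -1) * 1 + (-1 * 1 + -1 * -1) * -1)
      (by ring) = 1 := by
      rw [em_one]
      apply em_ext <;> ring
    rw [this, map_one]
  · exact pr_em_ne_one one_ne_zero

theorem ord_of_pr {Y : Subgroup (MulAut (P3 F))} (hY : ∀ x : P3 F, MulAut.conj x ∈ Y)
    (hi : Function.Injective (MulAut.conj : P3 F →* MulAut (P3 F))) {n : ℕ} (h : Ord (P3 F) n) : Ord Y n := by
  obtain ⟨x, rfl⟩ := h
  refine ⟨⟨MulAut.conj x, hY x⟩, ?_⟩
  rw [← Subgroup.orderOf_coe]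
  exact orderOf_injective _ hi x

/-- commuting elements of coprime orders -/
theorem ord_of_fix {Y : Subgroup (MulAut (P3 F))} (hY : ∀ x : P3 F, MulAut.conj x ∈ Y)
    (hi : Function.Injective (MulAut.conj : P3 F →* MulAut (P3 F))) {β : MulAut (SL3 F)} (hβ : lift β ∈ Y)
    {M : SL3 F} (hM : β M = M) {m r : ℕ} (hm : orderOf (pr M) = m) (hr : orderOf (lift β) = r) (hc : m.Coprime r) :
    Ord Y (m * r) := by
  have h1 : orderOf (MulAut.conj (pr M)) = m := by
    rw [← hm]
    exact orderOf_injective _ hi _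
  have hcomm : Commute (MulAut.conj (pr M)) (lift β) := by
    have h1 := aut_mul_conj (lift β) (pr M)
    rw [lift_pr, hM] at h1
    exact h1.symm
  refine ⟨⟨MulAut.conj (pr M) * lift β, Y.mul_mem (hY _) hβ⟩, ?_⟩
  rw [← Subgroup.orderOf_coe]
  show orderOf (MulAut.conj (pr M) * lift β) = _
  rw [hcomm.orderOf_mul_eq_mul_orderOf_of_coprime (by rw [h1, hr]; exact hc), h1, hr]

/-- the key lemma -/
theorem ord_six {Y : Subgroup (MulAut (P3 F))} (hY : ∀ x : P3 F, MulAut.conj x ∈ Y)
    (hi : Function.Injective (MulAut.conj : P3 F →* MulAut (P3 F))) {β : MulAut (SL3 F)} (h2 : β * β = 1)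
    (h3 : β (c3 F) = c3 F) (d : Fˣ) (hd : β * cj (D d) = cj (D d⁻¹) * β) (hne : lift (cj (D d) * β) ≠ 1)
    (hm : lift (cj (D d) * β) ∈ Y) : Ord Y 6 := by
  have hf := Fact.mk Nat.prime_two
  have ho : orderOf (lift (cj (D d) * β)) = 2 := by
    apply orderOf_eq_prime _ hne
    have : (cj (D d) * β) * (cj (D d) * β) = 1 := by
      rw [mul_assoc, ← mul_assoc β, hd, mul_assoc (cj (D d⁻¹)), h2, mul_one, ← map_mul, ← map_mul,
        mul_inv_cancel, map_one, map_one]
    rw [pow_two, ← map_mul, this, map_one]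
  exact ord_of_fix hY hi hm (M := c3 F) (by
    show cj (D d) (β (c3 F)) = c3 F
    rw [h3, c3, cj_D_em]) orderOf_c3 ho (by norm_num)

variable [Fintype F]

/-- the automorphisms of the field with four elements -/
theorem fld_four (h4 : Fintype.card F = 4) (σ : F ≃+* F) (hσ : σ ≠ 1) :
    σ * σ = 1 ∧ ∀ d : Fˣ, Units.map (σ : F →* F) d = d⁻¹ := by
  classical
  have h2 := StdL2.FGal.card_fixed σ
  have h3 : orderOf σ ≠ 1 := fun h => hσ (orderOf_eq_one_iff.1 h)
  have h5 : orderOf σ ≠ 0 := by
    intro h0
    rw [h0, Nat.card_eq_fintype_card, h4] at h2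
    norm_num at h2
  have h6 := StdL2.FGal.one_lt_card_fixed σ
  have key : orderOf σ = 2 ∧ Nat.card {x : F // σ x = x} = 2 := by
    rw [Nat.card_eq_fintype_card, h4] at h2
    set k := Nat.card {x : F // σ x = x}
    obtain ⟨m, hm⟩ : ∃ m, orderOf σ = m + 2 := ⟨orderOf σ - 2, by omega⟩
    rw [hm] at h2
    have hk3 : k ≤ 2 := by
      by_contra hcon
      push Not at hcon
      have : 3 ^ 2 ≤ k ^ (m + 2) := (Nat.pow_le_pow_left hcon 2).trans (Nat.pow_le_pow_right (by omega) (by omega))
      omega
    have hk2 : k = 2 := by omega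
    have hm2 : m < 1 := by
      by_contra hcon
      push Not at hcon
      have : 2 ^ 3 ≤ k ^ (m + 2) := (Nat.pow_le_pow_left h6 3).trans (Nat.pow_le_pow_right (by omega) (by omega))
      omega
    exact ⟨by omega, hk2⟩
  obtain ⟨ho, hk⟩ := key
  have hs2 : σ * σ = 1 := by
    have := pow_orderOf_eq_one σ
    rwa [ho, pow_two] at this
  have hss : ∀ x, σ (σ x) = x := fun x => congrArg (fun τ : F ≃+* F => τ x) hs2
  refine ⟨hs2, fun d => ?_⟩
  rw [eq_inv_iff_mul_eq_one]
  apply Units.ext
  show σ (d : F) * d = 1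
  by_contra hne
  have hfix : σ (σ (d : F) * d) = σ (d : F) * d := by rw [map_mul, hss, mul_comm]
  have hn0 : σ (d : F) * d ≠ 0 := mul_ne_zero (by rw [Ne, map_eq_zero_iff σ σ.injective]; exact d.ne_zero) d.ne_zero
  have hsub : ({0, 1, σ (d : F) * d} : Finset F) ⊆ Finset.univ.filter (fun x : F => σ x = x) := by
    intro x hx
    simp only [Finset.mem_insert, Finset.mem_singleton] at hx
    rw [Finset.mem_filter]
    refine ⟨Finset.mem_univ _, ?_⟩
    rcases hx with rfl | rfl | rfl
    · exact map_zero σ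
    · exact map_one σ
    · exact hfix
  have hc := Finset.card_le_card hsub
  rw [Nat.card_eq_fintype_card, Fintype.card_subtype] at hk
  rw [hk] at hc
  have h4c : ({0, 1, σ (d : F) * d} : Finset F).card = 3 := by
    rw [Finset.card_insert_of_notMem, Finset.card_insert_of_notMem, Finset.card_singleton]
    · simpa using fun h => hne h.symm
    · simp only [Finset.mem_insert, Finset.mem_singleton, not_or]
      exact ⟨zero_ne_one, hn0.symm⟩
  omega

theorem exists_noncomm (F : Type*) [Field F] [CharP F 2] : ∃ a b : P3 F, a * b ≠ b * a := by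
  refine ⟨j F a7, j F b3, ?_⟩
  intro h
  rw [← map_mul, ← map_mul] at h
  have := j_injective F h
  revert this
  decide

/-- **`PSL(3, 4)`.** -/
theorem aut_four (h4 : Fintype.card F = 4) [CharP F 2] (Y : Subgroup (MulAut (P3 F)))
    (hY : ∀ x : P3 F, MulAut.conj x ∈ Y) (hF : Few Y) : ∀ α ∈ Y, ∃ x : P3 F, α = MulAut.conj x := by
  classical
  intro α hα
  have hf := Fact.mk Nat.prime_two
  have hs := S0249.result (F := F) 3 le_rfl
  have hi := conj_injective (exists_noncomm F)
  have ho4 := ord_of_pr hY hi (ord_four F)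
  have hcu : ∀ d : Fˣ, d ^ 3 = 1 := by
    intro d
    have : Fintype.card Fˣ = 3 := by rw [Fintype.card_units, h4]
    rw [← this, pow_card_eq_one]
  -- suffices no element of order six
  have h6 : ¬ Ord Y 6 := by
    intro h6
    have hfin : Finite (P3 F) := inferInstance
    have hfinY : Finite Y := by
      have : Finite (MulAut (P3 F)) := inferInstance
      infer_instance
    exact hF.false Nat.prime_two (ho4.dvd (by norm_num : 2 ∣ 4)) ho4 h6 (by norm_num) (by norm_num) (by norm_num)
      (by norm_num) (by norm_num) (by norm_num)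
  rcases surj_three 2 le_rfl α with ⟨A, σ, rfl⟩ | ⟨A, σ, rfl⟩
  · set d : Fˣ := Units.mk0 _ (det_ne A) with hd
    have hD : lift (cj (D d) * fld σ) ∈ Y := mem_of_det hY hα (by rw [det_D]; rfl)
    by_cases hσ : σ = 1
    · subst hσ
      rw [map_one, mul_one] at hD ⊢
      by_cases hd1 : d = 1
      · -- inner
        have hdet : (A : Matrix (Fin 3) (Fin 3) F).det = 1 := by
          have := congrArg (fun u : Fˣ => (u : F)) hd1
          exact this
        have h1 : lift (cj A * 1) ∈ (MulAut.conj : P3 F →* MulAut (P3 F)).range := by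
          refine mem_of_det (A := 1) (fun x => MonoidHom.mem_range.2 ⟨x, rfl⟩) ?_ (by
            rw [hdet, Units.val_one, det_one])
          rw [map_one, one_mul, map_one]
          exact one_mem _
        rw [mul_one] at h1
        obtain ⟨x, hx⟩ := h1
        exact ⟨x, hx.symm⟩
      · exfalso
        apply h6
        have hf3 := Fact.mk Nat.prime_three
        have ho : orderOf (lift (cj (D d))) = 3 := by
          apply orderOf_eq_prime
          · rw [← map_pow, ← map_pow, ← map_pow, hcu, map_one, map_one, map_one]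
          · intro h
            have h1 : lift (cj (D d) * fld (1 : F ≃+* F)) = lift (fld 1) := by
              rw [map_one, mul_one, h, map_one]
            obtain ⟨⟨r, hr⟩, -⟩ := injective_aux h1
            rw [D_coe] at hr
            have e0 := congrFun (congrFun hr 0) 0
            have e1 := congrFun (congrFun hr 1) 1
            simp at e0 e1
            apply hd1
            apply Units.ext
            rw [← e0, e1, Units.val_one]
        have hu : orderOf (pr (em (1 : F) 1 0 1 (by ring))) = 2 := by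
          apply orderOf_eq_prime
          · rw [← map_pow, pow_two, em_mul]
            have : em (F := F) (1 * 1 + 1 * 0) (1 * 1 + 1 * 1) (0 * 1 + 1 * 0) (0 * 1 + 1 * 1) (by
                have h9 : (2 : F) = 0 := CharTwo.two_eq_zero
                ring) = 1 := by
              have h9 : (2 : F) = 0 := CharTwo.two_eq_zero
              rw [em_one]
              apply em_ext
              · ring
              · linear_combination h9
              · ring
              · ring
            rw [this, map_one]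
          · exact pr_em_ne_one one_ne_zero
        exact ord_of_fix hY hi hD (M := em (1 : F) 1 0 1 (by ring)) (cj_D_em d) hu ho (by norm_num)
    · exfalso
      apply h6
      obtain ⟨hσ2, hσd⟩ := fld_four h4 σ hσ
      refine ord_six hY hi (β := fld σ) (by rw [← map_mul, hσ2, map_one]) ?_ d ?_ ?_ hD
      · rw [c3, fld_em]
        apply em_ext <;> simp
      · rw [fld_cj_D, hσd]
      · intro h
        have h1 : lift (cj (D d) * fld σ) = lift (fld 1) := by rw [h, map_one, map_one]
        exact hσ (injective_aux h1).2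
  · exfalso
    apply h6
    set d : Fˣ := Units.mk0 _ (det_ne A) with hd
    have hD : lift (cj (D d) * gr σ) ∈ Y := by
      have h1 : lift (cj (D d * sg (J F)) * (fld σ * itr)) ∈ Y := by
        refine mem_of_det hY (A := A) (by rw [← mul_assoc]; exact hα) ?_
        rw [Units.val_mul, det_mul, det_D]
        show (d : F) * (J F).1.det = _
        rw [(J F).2, mul_one]; rfl
      rw [map_mul cj, mul_assoc (cj (D d))] at h1
      unfold gr
      rw [mul_assoc (cj (sg (J F)))]
      exact h1
    have hc3 : ∀ σ : F ≃+* F, gr σ (c3 F) = c3 F := by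
      intro σ
      rw [c3, gr_em]
      apply em_ext <;> simp
    have hne : ∀ (σ : F ≃+* F) (d : Fˣ), lift (cj (D d) * gr σ) ≠ 1 := by
      intro σ d h
      have h1 : lift (cj (D d * sg (J F)) * fld σ * itr) = lift (fld (1 : F ≃+* F)) := by
        rw [map_one, map_one, ← h]
        unfold gr
        rw [map_mul cj]
        simp only [mul_assoc]
      exact not_graph (by simp) h1
    by_cases hσ : σ = 1
    · subst hσ
      refine ord_six hY hi (gr_mul_gr (by rw [mul_one])) (hc3 1) d ?_ (hne 1 d) hD
      rw [gr_cj_D]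
      rfl
    · obtain ⟨hσ2, hσd⟩ := fld_four h4 σ hσ
      have hcomm : gr σ * cj (D d) = cj (D d) * gr σ := by
        rw [gr_cj_D, hσd, inv_inv]
      have hg2 := gr_mul_gr hσ2
      have hcube : (cj (D d) * gr σ) ^ 3 = gr σ := by
        have h1 : (cj (D d) * gr σ) ^ 3 = cj (D d) ^ 3 * gr σ ^ 3 := (Commute.mul_pow hcomm.symm 3)
        rw [h1, ← map_pow, ← map_pow, hcu, map_one, map_one, one_mul, pow_succ, pow_two, hg2, one_mul]
      have hgr : lift (cj (D 1) * gr σ) ∈ Y := by
        have := Y.pow_mem hD 3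
        rw [← map_pow, hcube] at this
        rw [map_one, map_one, one_mul]
        exact this
      refine ord_six hY hi hg2 (hc3 σ) 1 ?_ (hne σ 1) hgr
      rw [inv_one, map_one, map_one, one_mul, mul_one]

end P3

end Cfsg.Agent.H577
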