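import Cfsg.Agent.H577.Suz

/-!
# Frobenius subgroups of the Suzuki groups
-/

set_option autoImplicit false
set_option linter.unusedSectionVars false

namespace Cfsg.Agent.H577

open Subgroup
open Cfsg.Agent.ThreePrime

namespace Suz

/-- A self-centralizing abelian subgroup of odd order with normalizer of index 4. -/
theorem notEven_of {G : Type*} [Group G] [Finite G] (U : Subgroup G) (k : ℕ) (hk : Odd k) (hk1 : k ≠ 1)
    (hUc : IsCyclic U) (hU : Nat.card U = k) (hc : ∀ u ∈ U, u ≠ 1 → centralizer {u} = U)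
    (hN : Nat.card (normalizer (U : Set G)) = 4 * k) : NotEven G := by
  classical
  have hf := Fact.mk Nat.prime_two
  have hcomm : ∀ u ∈ U, ∀ v ∈ U, u * v = v * u := by
    intro u hu v hv
    have := hUc.isMulCommutative
    exact congrArg Subtype.val (this.is_comm.comm (⟨u, hu⟩ : U) ⟨v, hv⟩)
  obtain ⟨P⟩ : Nonempty (Sylow 2 (normalizer (U : Set G))) := inferInstance
  have hP : Nat.card P = 4 := by
    rw [Sylow.card_eq_multiplicity, hN, Nat.factorization_mul (by norm_num) (by rintro rfl; exact absurd hk (by decide))]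
    have h1 : k.factorization 2 = 0 := Nat.factorization_eq_zero_of_not_dvd (by
      rw [← even_iff_two_dvd, Nat.not_even_iff_odd]; exact hk)
    have h2 : (4 : ℕ) = 2 ^ 2 := by norm_num
    rw [Finsupp.add_apply, h1, h2, Nat.Prime.factorization_pow Nat.prime_two]
    simp
  -- nontrivial 2-elements act without fixed points
  have hfpf : ∀ x : G, (∃ n, x ^ 2 ^ n = 1) → x ≠ 1 → ∀ u ∈ U, x * u * x⁻¹ = u → u = 1 := by
    rintro x ⟨n, hn⟩ hx1 u hu h
    by_contra hu1
    have h1 : x ∈ centralizer {u} := by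
      rw [mem_centralizer_singleton_iff]
      rw [mul_inv_eq_iff_eq_mul] at h
      exact h
    rw [hc u hu hu1] at h1
    have h2 : orderOf x ∣ k := by
      rw [← hU]
      have := orderOf_dvd_natCard (⟨x, h1⟩ : U)
      rwa [Subgroup.orderOf_mk] at this
    have h3 : orderOf x ∣ 2 ^ n := orderOf_dvd_of_pow_eq_one hn
    have h4 : Nat.Coprime (2 ^ n) k := Nat.Coprime.pow_left _ ((Nat.coprime_two_left).2 hk)
    exact hx1 (orderOf_eq_one_iff.1 (Nat.eq_one_of_dvd_coprimes h4 h3 h2))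
  have hnorm : ∀ x : normalizer (U : Set G), ∀ u ∈ U, (x : G) * u * (x : G)⁻¹ ∈ U := by
    intro x u hu
    exact (Subgroup.mem_normalizer_iff.1 x.2 u).1 hu
  -- involutions invert
  have hinv : ∀ x : normalizer (U : Set G), (x : G) * x = 1 → (x : G) ≠ 1 → ∀ u ∈ U, (x : G) * u * (x : G)⁻¹ = u⁻¹ := by
    intro x hx hx1 u hu
    have h1 := hnorm x u hu
    have h2 : u * ((x : G) * u * (x : G)⁻¹) = 1 := by
      apply hfpf x ⟨1, by rw [pow_one, pow_two]; exact hx⟩ hx1 _ (U.mul_mem hu h1)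
      have hxi : (x : G)⁻¹ = x := inv_eq_of_mul_eq_one_left hx
      calc (x : G) * (u * ((x : G) * u * (x : G)⁻¹)) * (x : G)⁻¹
          = ((x : G) * u * (x : G)⁻¹) * (((x : G) * x) * u * ((x : G) * x)⁻¹) := by group
        _ = ((x : G) * u * (x : G)⁻¹) * u := by rw [hx]; simp
        _ = u * ((x : G) * u * (x : G)⁻¹) := hcomm _ h1 _ hu
    exact (inv_eq_of_mul_eq_one_right h2).symm
  have hU1 : ∃ u ∈ U, u ≠ 1 := by
    have hne : U ≠ ⊥ := by
      intro h
      rw [h, card_bot] at hU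
      exact hk1 hU.symm
    obtain ⟨u, hu⟩ := ne_bot_iff_exists_ne_one.1 hne
    exact ⟨u, u.2, fun h => hu (Subtype.ext h)⟩
  obtain ⟨c, hcP, hc4⟩ : ∃ c : normalizer (U : Set G), c ∈ P ∧ orderOf c = 4 := by
    by_contra hcon
    push Not at hcon
    have hsq : ∀ x ∈ P, x * x = 1 := by
      intro x hx
      have h1 : orderOf x ∣ 4 := by
        rw [← hP]
        have := orderOf_dvd_natCard (⟨x, hx⟩ : P)
        rwa [Subgroup.orderOf_mk] at this
      have h2 := hcon x hx
      have h3 : orderOf x ∣ 2 := by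
        have h4 : orderOf x ≤ 4 := Nat.le_of_dvd (by norm_num) h1
        have h5 : 0 < orderOf x := orderOf_pos x
        interval_cases hh : orderOf x <;> simp_all
      rw [← pow_two]
      exact orderOf_dvd_iff_pow_eq_one.1 h3
    have hnt : Nontrivial P := by
      rw [← Finite.one_lt_card_iff_nontrivial]
      omega
    obtain ⟨x, hx1⟩ := exists_ne (1 : P)
    obtain ⟨y, hy1, hyx⟩ : ∃ y : P, y ≠ 1 ∧ y ≠ x := by
      by_contra hcon2
      push Not at hcon2
      have h1 : (Set.univ : Set P) ⊆ {1, x} := by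
        intro z _
        by_cases hz : z = 1
        · left; exact hz
        · right; exact hcon2 z hz
      have h2 := Set.ncard_le_ncard h1 (Set.toFinite _)
      rw [Set.ncard_univ, hP, Set.ncard_pair hx1.symm] at h2
      omega
    have hx1' : ((x : normalizer (U : Set G)) : G) ≠ 1 := fun h => hx1 (Subtype.ext (Subtype.ext h))
    have hy1' : ((y : normalizer (U : Set G)) : G) ≠ 1 := fun h => hy1 (Subtype.ext (Subtype.ext h))
    have hxx : ((x : normalizer (U : Set G)) : G) * x = 1 := congrArg Subtype.val (hsq x x.2)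
    have hyy : ((y : normalizer (U : Set G)) : G) * y = 1 := congrArg Subtype.val (hsq y y.2)
    have hxyP : (x : normalizer (U : Set G)) * y ∈ P := mul_mem x.2 y.2
    have hxy1 : ((x : normalizer (U : Set G)) : G) * y ≠ 1 := by
      intro h
      apply hyx
      apply Subtype.ext
      apply Subtype.ext
      have h3 : ((x : normalizer (U : Set G)) : G) * y = ((x : normalizer (U : Set G)) : G) * x := by rw [h, hxx]
      exact mul_left_cancel h3
    have hxyxy : (((x : normalizer (U : Set G)) : G) * y) * (((x : normalizer (U : Set G)) : G) * y) = 1 :=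
      congrArg Subtype.val (hsq _ hxyP)
    obtain ⟨u, hu, hu1⟩ := hU1
    apply hu1
    apply hfpf _ ⟨1, by rw [pow_one, pow_two]; exact hxyxy⟩ hxy1 u hu
    have e1 := hinv x hxx hx1'
    have e2 := hinv y hyy hy1' u hu
    calc ((x : normalizer (U : Set G)) : G) * y * u * (((x : normalizer (U : Set G)) : G) * y)⁻¹
        = ((x : normalizer (U : Set G)) : G) * (y * u * ((y : normalizer (U : Set G)) : G)⁻¹) *
            ((x : normalizer (U : Set G)) : G)⁻¹ := by group
      _ = u := by rw [e2, e1 _ (U.inv_mem hu), inv_inv]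
  right
  refine ⟨U, (c : G), 4, Or.inr rfl, ?_, ?_, ?_, ?_, ?_⟩
  · rw [Subgroup.orderOf_coe, hc4]
  · intro h
    rw [h, card_bot] at hU
    exact hk1 hU.symm
  · rw [hU]; exact hk
  · exact hnorm c
  · intro i hi0 hi4 e he h
    have hc4' : orderOf (c : G) = 4 := by rw [Subgroup.orderOf_coe, hc4]
    refine hfpf ((c : G) ^ i) ⟨2, ?_⟩ ?_ e he h
    · rw [← pow_mul, mul_comm, pow_mul]
      have : (c : G) ^ 2 ^ 2 = 1 := by
        rw [show (2 : ℕ) ^ 2 = orderOf (c : G) by rw [hc4']; norm_num, pow_orderOf_eq_one]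
      rw [this, one_pow]
    · intro h1
      have h2 := orderOf_dvd_of_pow_eq_one h1
      rw [hc4'] at h2
      exact absurd (Nat.le_of_dvd hi0 h2) (by omega)

/-- all the facts on the Suzuki groups -/
theorem facts {J : Type*} [Group J] [Finite J] (h : Cfsg.Lie.IsoSuzuki J) :
    ∃ m : ℕ, 1 ≤ m ∧ Ord J 4 ∧ Ord J (2 ^ (2 * m + 1) - 1) ∧ Ord J (2 ^ (2 * m + 1) + 2 ^ (m + 1) + 1) ∧
      Ord J (2 ^ (2 * m + 1) - 2 ^ (m + 1) + 1) ∧ NotEven J ∧
      Nat.card J = (2 ^ (2 * m + 1)) ^ 2 * ((2 ^ (2 * m + 1)) ^ 2 + 1) * (2 ^ (2 * m + 1) - 1) := by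
  classical
  obtain ⟨F, iF, iF', m, hm, hF, ⟨e⟩⟩ := h
  obtain ⟨e2⟩ := OddCyclic.ClaimC.SzIso.iso hm hF
  have hJ : Cfsg.Lie.IsoSuzuki J := ⟨F, iF, iF', m, hm, hF, ⟨e⟩⟩
  let e3 : Cfsg.Sz F m ≃* J := e2.trans e.symm
  have hR : Nonempty (SzRel.Rel J F) := by
    refine ⟨(SzRel.ofGood (LieRecognition.SzMatrix.good hF)).map e.symm⟩
  obtain ⟨R⟩ := hR
  have hpow : ∀ n, 1 ≤ 2 ^ n := fun n => Nat.one_le_two_pow
  have hord : ∀ k ∈ ({2 ^ (2 * m + 1) + 2 ^ (m + 1) + 1, 2 ^ (2 * m + 1) - 2 ^ (m + 1) + 1} : Set ℕ), Ord J k := by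
    intro k hk
    obtain ⟨U, hUc, hU, -, -⟩ := S0333.result hm hF k hk
    obtain ⟨g, hg⟩ := hUc.exists_generator
    refine Ord.of_equiv ?_ e3
    refine ⟨(g : Cfsg.Sz F m), ?_⟩
    rw [Subgroup.orderOf_coe, orderOf_eq_card_of_forall_mem_zpowers hg, hU]
  refine ⟨m, hm, ord_four R, ?_, hord _ (Or.inl rfl), hord _ (Or.inr rfl), ?_, ?_⟩
  · have := ord_torus R
    rwa [hF] at this
  · obtain ⟨U, hUc, hU, hc, hN⟩ := S0333.result hm hF (2 ^ (2 * m + 1) + 2 ^ (m + 1) + 1) (Or.inl rfl)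
    refine NotEven.congr (notEven_of U _ ?_ ?_ hUc hU hc hN) e3
    · refine ⟨2 ^ (2 * m) + 2 ^ m, ?_⟩
      rw [pow_succ, pow_succ]
      ring
    · have h1 : 0 < 2 ^ (2 * m + 1) := Nat.pos_of_ne_zero (by positivity)
      intro h
      have h2 : 2 ^ (2 * m + 1) + 2 ^ (m + 1) = 0 := Nat.succ.inj h
      exact absurd (Nat.eq_zero_of_add_eq_zero_right h2) h1.ne'
  · rw [Nat.card_congr e.toEquiv, (S1163.result hm hF).1]
    ring

end Suz

end Cfsg.Agent.H577
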