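import Cfsg.Agent.S0348
import Cfsg.Agent.Walter.StepAll
import Cfsg.Agent.ThreePrime.Main
import Cfsg.Agent.OddCyclic.T1Socle
import Cfsg.Agent.H577.PslAutOddMain
import Cfsg.Agent.H577.Psl34Main
import Cfsg.Agent.H577.SuzTwo

/-!
# The simple `Few` groups
-/

set_option autoImplicit false
set_option linter.unusedSectionVars false

namespace Cfsg.Agent.H577

open Subgroup Psl2

universe u

/-- The possibilities for a simple `Few` group. -/
def Known (T : Type*) [Group T] : Prop :=
  (∃ (F : Type) (_ : Field F) (_ : Fintype F), Even (Fintype.card F) ∧ 4 ≤ Fintype.card F ∧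
      Nonempty (T ≃* P2 F)) ∨
  (∃ (F : Type) (_ : Field F) (_ : Fintype F), (Fintype.card F % 8 = 3 ∨ Fintype.card F % 8 = 5) ∧
      5 < Fintype.card F ∧ Nonempty (T ≃* P2 F)) ∨
  (∃ (F : Type) (_ : Field F) (_ : Fintype F), (Fintype.card F = 7 ∨ Fintype.card F = 9) ∧
      Nonempty (T ≃* P2 F)) ∨
  (∃ (F : Type) (_ : Field F) (_ : Fintype F), Fintype.card F = 4 ∧ Nonempty (T ≃* P3.P3 F)) ∨
  Cfsg.Lie.IsoSuzuki T

theorem not_isSolvable_of_simple {T : Type*} [Group T] (hs : IsSimpleGroup T) (hn : ∃ a b : T, a * b ≠ b * a) :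
    ¬ Group.IsSolvable T := by
  intro h
  obtain ⟨a, b, hab⟩ := hn
  exact hab (IsSimpleGroup.comm_iff_isSolvable.2 h a b)

/-- `PSL(2, 2)` and `PSL(2, 3)` are not simple. -/
theorem card_ge_four {T : Type*} [Group T] [Finite T] (hns : ¬ Group.IsSolvable T) {F : Type*} [Field F] [Fintype F]
    (e : T ≃* P2 F) : 4 ≤ Fintype.card F := by
  by_contra hcon
  push Not at hcon
  obtain ⟨p, q, r, hp, hq, hr, hpq, hpr, hqr, h1, h2, h3⟩ := exists_three_primes T hns
  have h4 : Nat.card T = 6 ∨ Nat.card T = 12 := by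
    rw [Nat.card_congr e.toEquiv]
    have hlt : 1 < Fintype.card F := Fintype.one_lt_card
    rcases (by omega : Fintype.card F = 2 ∨ Fintype.card F = 3) with h | h
    · left
      rw [SmallSimple.PSLTwoPart.card_psl_two_even (by rw [h]; decide), h]
      norm_num
    · right
      have h5 := SmallSimple.PSLTwoPart.card_psl_two_odd (F := F) (by rw [h]; decide)
      rw [h] at h5
      have h6 : 2 * Nat.card (P2 F) = 24 := h5.trans (by norm_num)
      omega
  have key : ∀ l : ℕ, l.Prime → l ∣ Nat.card T → l = 2 ∨ l = 3 := by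
    intro l hl hd
    have h5 : l ∣ 12 := by
      rcases h4 with h | h <;> rw [h] at hd
      · exact hd.trans (by norm_num)
      · exact hd
    have h6 : l ∣ 2 ^ 2 * 3 := h5
    rcases (Nat.Prime.dvd_mul hl).1 h6 with h7 | h7
    · left
      exact (Nat.prime_dvd_prime_iff_eq hl Nat.prime_two).1 (hl.dvd_of_dvd_pow h7)
    · right
      exact (Nat.prime_dvd_prime_iff_eq hl Nat.prime_three).1 h7
  have k1 := key p hp h1
  have k2 := key q hq h2
  have k3 := key r hr h3
  omega

theorem equiv_sl_four {T : Type*} [Group T] {F : Type*} [Field F] [Fintype F] (h5 : Fintype.card F = 5)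
    (e : T ≃* P2 F) : ∃ (K : Type) (_ : Field K) (_ : Fintype K), Even (Fintype.card K) ∧ 4 ≤ Fintype.card K ∧
      Nonempty (T ≃* P2 K) := by
  obtain ⟨K, iK, iK', iC, hK, ⟨f⟩⟩ := OddCyclic.T1Socle.exists_four h5
  refine ⟨K, iK, iK', by rw [hK]; decide, hK.ge, ?_⟩
  have hbij : Function.Bijective (ClassicalGeometry.AutPSL.Root.pr : SL2 K →* P2 K) := by
    refine ⟨?_, ClassicalGeometry.AutPSL.Root.pr_surjective⟩
    rw [injective_iff_map_eq_one]
    intro x hx
    rw [pr_eq_one_iff] at hx
    rcases hx with h | h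
    · exact h
    · rw [h]
      have h2 : (2 : K) = 0 := CharTwo.two_eq_zero
      exact ClassicalGeometry.PSLTorus.neg_one_eq_one h2
  exact ⟨(e.trans f).trans (MulEquiv.ofBijective _ hbij)⟩

theorem one_ne_zero_two : (1 : ZMod 2) ≠ 0 := by decide

theorem length_two_pow (k : ℕ) : (2 ^ k).primeFactorsList.length = k := by
  rw [Nat.Prime.primeFactorsList_pow Nat.prime_two, List.length_replicate]

/-- the two-power tori -/
theorem known_of_prime {T : Type*} [Group T] [Finite T] (hT : Few T) (hns : ¬ Group.IsSolvable T)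
    {F : Type} [Field F] [Fintype F] (hp : (Fintype.card F).Prime)
    (hk : ∃ k : ℕ, Fintype.card F = 2 ^ k + 1 ∨ Fintype.card F + 1 = 2 ^ k) (e : T ≃* P2 F) : Known T := by
  have h4 := card_ge_four hns e
  have hodd : Odd (Fintype.card F) := hp.odd_of_ne_two (by omega)
  have hg : Nat.gcd 2 (Fintype.card F - 1) = 2 := by
    apply Nat.gcd_eq_left
    obtain ⟨m, hm⟩ := hodd
    exact ⟨m, by omega⟩
  have hF : Few (P2 F) := hT.of_injective e.symm.toMonoidHom e.symm.injective
  obtain ⟨k, hk | hk⟩ := hk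
  · have hk0 : k ≠ 0 := by
      rintro rfl
      omega
    obtain ⟨j, rfl⟩ : ∃ j, k = j + 1 := ⟨k - 1, by omega⟩
    have h1 := ord_minus (F := F)
    rw [hg, hk] at h1
    have h2 : (2 ^ (j + 1) + 1 - 1) / 2 = 2 ^ j := by
      rw [Nat.add_sub_cancel, pow_succ, Nat.mul_div_cancel _ (by norm_num)]
    rw [h2] at h1
    have h3 := hF.length_le_two h1
    rw [length_two_pow] at h3
    have h5 : Fintype.card F = 5 := by
      interval_cases j
      · omega
      · omega
      · rw [hk] at hp
        exact absurd hp (by norm_num)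
    exact Or.inl (equiv_sl_four h5 e)
  · have hk0 : k ≠ 0 := by
      rintro rfl
      omega
    obtain ⟨j, rfl⟩ : ∃ j, k = j + 1 := ⟨k - 1, by omega⟩
    have h1 := ord_plus (F := F)
    rw [hg, hk] at h1
    have h2 : 2 ^ (j + 1) / 2 = 2 ^ j := by
      rw [pow_succ, Nat.mul_div_cancel _ (by norm_num)]
    rw [h2] at h1
    have h3 := hF.length_le_two h1
    rw [length_two_pow] at h3
    have h7 : Fintype.card F = 7 := by
      interval_cases j
      · omega
      · omega
      · omega
    exact Or.inr (Or.inr (Or.inl ⟨F, inferInstance, inferInstance, Or.inl h7, ⟨e⟩⟩))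

theorem not_three_dvd_suzuki (m : ℕ) :
    ¬ 3 ∣ (2 ^ (2 * m + 1)) ^ 2 * ((2 ^ (2 * m + 1)) ^ 2 + 1) * (2 ^ (2 * m + 1) - 1) := by
  have h1 : 2 ^ (2 * m + 1) % 3 = 2 := by
    rw [pow_succ, pow_mul, Nat.mul_mod, Nat.pow_mod]
    norm_num
  intro h
  generalize 2 ^ (2 * m + 1) = q at h1 h
  obtain ⟨a, rfl⟩ : ∃ a, q = 3 * a + 2 := ⟨q / 3, by omega⟩
  rcases (Nat.Prime.dvd_mul Nat.prime_three).1 h with h2 | h2
  · rcases (Nat.Prime.dvd_mul Nat.prime_three).1 h2 with h3 | h3
    · have := Nat.prime_three.dvd_of_dvd_pow h3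
      omega
    · have : (3 * a + 2) ^ 2 + 1 = 3 * (3 * a ^ 2 + 4 * a + 1) + 2 := by ring
      omega
  · omega

/-- **The simple `Few` groups.** -/
theorem known_of_few {T : Type u} [Group T] [Finite T] [hs : IsSimpleGroup T] (hn : ∃ a b : T, a * b ≠ b * a)
    (hT : Few T) : Known T := by
  classical
  have hf := Fact.mk Nat.prime_two
  have hns := not_isSolvable_of_simple hs hn
  by_cases hCIT : ∀ t : T, orderOf t = 2 → IsPGroup 2 (Subgroup.centralizer ({t} : Set T))
  · rcases S0348.result hn hCIT with ⟨F, iF, iF', hF, ⟨e⟩⟩ | ⟨F, iF, iF', hF, ⟨e⟩⟩ | hSz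
    · rcases hF with h9 | ⟨n, hn2⟩ | ⟨hp, hk⟩
      · exact Or.inr (Or.inr (Or.inl ⟨F, iF, iF', Or.inr h9, ⟨e⟩⟩))
      · left
        have h4 := card_ge_four hns e
        refine ⟨F, iF, iF', ?_, h4, ⟨e⟩⟩
        rw [hn2]
        have : n ≠ 0 := by
          rintro rfl
          rw [hn2] at h4
          norm_num at h4
        exact (even_two.pow_of_ne_zero this)
      · exact known_of_prime hT hns hp hk e
    · exact Or.inr (Or.inr (Or.inr (Or.inl ⟨F, iF, iF', hF, ⟨e⟩⟩)))
    · right; right; right; right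
      obtain ⟨-, m, -, hcard⟩ := hSz
      apply ThreePrime.Main.isoSuzuki hn
      rw [hcard]
      exact not_three_dvd_suzuki m
  · -- an element of order `2 r`
    push Not at hCIT
    obtain ⟨t, ht, hnp⟩ := hCIT
    obtain ⟨r, hr, hr2, hor⟩ : ∃ r : ℕ, r.Prime ∧ r ≠ 2 ∧ Ord T (2 * r) := by
      by_contra hcon
      push Not at hcon
      apply hnp
      rw [IsPGroup.iff_orderOf]
      intro y
      have h0 : orderOf y ≠ 0 := (orderOf_pos y).ne'
      refine ⟨(orderOf y).primeFactorsList.length, ?_⟩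
      apply Nat.eq_prime_pow_of_unique_prime_dvd h0
      intro r hr hrd
      by_contra hr2
      apply hcon r hr hr2
      have hyo : orderOf (y ^ (orderOf y / r)) = r := orderOf_pow_orderOf_div h0 hrd
      have hcomm : Commute t ((y ^ (orderOf y / r) : centralizer ({t} : Set T)) : T) := by
        have := (y ^ (orderOf y / r)).2
        rw [mem_centralizer_singleton_iff] at this
        exact this.symm
      have := ord_mul hcomm (by
        rw [ht, Subgroup.orderOf_coe, hyo]; exact (Nat.coprime_primes Nat.prime_two hr).2 (Ne.symm hr2))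
      rwa [ht, Subgroup.orderOf_coe, hyo] at this
    have hr1 := hr.one_lt
    have h4 : ¬ Ord T 4 := by
      intro h4
      exact hT.false Nat.prime_two (h4.dvd (by norm_num : 2 ∣ 4)) h4 hor (by norm_num) (by omega) (by omega)
        (by norm_num) (by norm_num) (dvd_mul_right _ _)
    obtain ⟨S⟩ : Nonempty (Sylow 2 T) := inferInstance
    have hsq : ∀ s ∈ (S : Subgroup T), s * s = 1 := by
      intro s hs
      obtain ⟨n, hn⟩ := (IsPGroup.iff_orderOf.1 S.isPGroup') ⟨s, hs⟩
      rw [Subgroup.orderOf_mk] at hn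
      have hn1 : n ≤ 1 := by
        by_contra hcon
        apply h4
        refine Ord.dvd ⟨s, rfl⟩ ?_
        rw [hn]
        exact Nat.pow_dvd_pow 2 (by omega : 2 ≤ n)
      rw [← pow_two]
      apply orderOf_dvd_iff_pow_eq_one.1
      rw [hn]
      exact Nat.pow_dvd_pow 2 hn1
    have habel : ∀ a ∈ (S : Subgroup T), ∀ b ∈ (S : Subgroup T), a * b = b * a := by
      intro a ha b hb
      have h1 := hsq _ (S.mul_mem ha hb)
      have i1 : a⁻¹ = a := inv_eq_of_mul_eq_one_left (hsq a ha)
      have i2 : b⁻¹ = b := inv_eq_of_mul_eq_one_left (hsq b hb)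
      have i3 : (a * b)⁻¹ = a * b := inv_eq_of_mul_eq_one_left h1
      rw [mul_inv_rev, i1, i2] at i3
      exact i3.symm
    have hna : ¬ IsMulCommutative T := by
      rintro ⟨⟨h⟩⟩
      obtain ⟨a, b, hab⟩ := hn
      exact hab (h a b)
    rcases Walter.Main.wType_of_step Walter.StepAll.step T hs hna S habel with h | h | h
    · obtain ⟨F, iF, iF', n, hn, hF, ⟨e⟩⟩ := h
      left
      refine ⟨F, iF, iF', ?_, card_ge_four hns e, ⟨e⟩⟩
      rw [hF]
      exact (even_two.pow_of_ne_zero (by omega))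
    · obtain ⟨F, iF, iF', h8, h5, ⟨e⟩⟩ := h
      by_cases h5' : Fintype.card F = 5
      · exact Or.inl (equiv_sl_four h5' e)
      · exact Or.inr (Or.inl ⟨F, iF, iF', h8, by omega, ⟨e⟩⟩)
    · exfalso
      obtain ⟨-, F, iF, iF', h8, h5, hc⟩ := h
      obtain ⟨e⟩ := hc t ht
      have hX : Few (Multiplicative (ZMod 2) × P2 F) :=
        (hT.subgroup (centralizer ({t} : Set T))).of_injective e.symm.toMonoidHom e.symm.injective
      have hsP := TwoFusion.SLTwoFacts.isSimpleGroup_psl (F := F) (by omega)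
      have hnP := not_isSolvable_of_simple hsP (exists_noncomm (F := F) (by omega))
      have hK : ¬ Group.IsSolvable ((MonoidHom.inr (Multiplicative (ZMod 2)) (P2 F)).range) := by
        intro h
        apply hnP
        have hinj : Function.Injective (MonoidHom.inr (Multiplicative (ZMod 2)) (P2 F)) := by
          intro a b hab
          exact congrArg Prod.snd hab
        exact Group.isSolvable_of_surjective (f := (MonoidHom.ofInjective hinj).symm.toMonoidHom)
          (MonoidHom.ofInjective hinj).symm.surjective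
      have hbot := centralizer_eq_bot_of_few hX _ hK
      have hz : ((Multiplicative.ofAdd (1 : ZMod 2), 1) : Multiplicative (ZMod 2) × P2 F) ∈
          centralizer (((MonoidHom.inr (Multiplicative (ZMod 2)) (P2 F)).range : Subgroup _) : Set _) := by
        rw [mem_centralizer_iff]
        rintro _ ⟨y, rfl⟩
        ext <;> simp
      rw [hbot, mem_bot] at hz
      have h1 : (Multiplicative.ofAdd (1 : ZMod 2)) = Multiplicative.ofAdd 0 := congrArg Prod.fst hz
      have h2 : (1 : ZMod 2) = 0 := Multiplicative.ofAdd.injective h1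
      exact one_ne_zero_two h2

end Cfsg.Agent.H577
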