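import Cfsg.Agent.H577.PslAutTwo

/-!
# `PSL(3, 4)`
-/

set_option autoImplicit false
set_option linter.unusedSectionVars false
set_option linter.dupNamespace false

namespace Cfsg.Agent.H577

open Matrix Subgroup
open Cfsg.Agent.ClassicalGeometry.AutPSL.Root (pr pr_surjective exists_smul_of_pr_eq)
open Cfsg.Agent.ClassicalGeometry.AutPSL.Auto (cj fld lift itr coe_cj coe_fld_apply lift_pr coe_itr itr_mul_itr)
open Cfsg.Agent.ClassicalGeometry.AutPSL.Main (cj_eq_one_of_scalar injective_aux surj_two surj_three not_graph)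

namespace P3

abbrev SL3 (F : Type*) [Field F] := Matrix.SpecialLinearGroup (Fin 3) F
abbrev P3 (F : Type*) [Field F] := Matrix.ProjectiveSpecialLinearGroup (Fin 3) F

section two

/-- matrices over the field with two elements in `PSL(3, F)` -/
def j (F : Type*) [Field F] [CharP F 2] : Matrix.SpecialLinearGroup (Fin 3) (ZMod 2) →* P3 F :=
  pr.comp (Matrix.SpecialLinearGroup.map (ZMod.castHom (dvd_refl 2) F))

theorem j_injective (F : Type*) [Field F] [CharP F 2] : Function.Injective (j F) := by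
  rw [injective_iff_map_eq_one]
  intro x hx
  have h1 : pr (1 : SL3 F) = pr (Matrix.SpecialLinearGroup.map (ZMod.castHom (dvd_refl 2) F) x) := by
    rw [map_one]; exact hx.symm
  obtain ⟨c, hc⟩ := exists_smul_of_pr_eq h1
  have hinj : Function.Injective (ZMod.castHom (dvd_refl 2) F) := (ZMod.castHom (dvd_refl 2) F).injective
  have hent : ∀ i k, (ZMod.castHom (dvd_refl 2) F) (x.1 i k) = (c • (1 : Matrix (Fin 3) (Fin 3) F)) i k := by
    intro i k
    have := congrFun (congrFun hc i) k
    exact this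
  have hdiag : ∀ i k, i ≠ k → x.1 i k = 0 := by
    intro i k hik
    apply hinj
    rw [hent, map_zero, Matrix.smul_apply, one_apply_ne hik, smul_zero]
  have hsame : ∀ i k, x.1 i i = x.1 k k := by
    intro i k
    apply hinj
    rw [hent, hent, Matrix.smul_apply, Matrix.smul_apply, one_apply_eq, one_apply_eq]
  have hx0 : x.1 0 0 ≠ 0 := by
    intro h0
    have hzero : x.1 = 0 := by
      ext i k
      by_cases hik : i = k
      · subst hik
        rw [hsame i 0, h0]; rfl
      · rw [hdiag i k hik]; rfl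
    have := x.2
    rw [hzero, det_zero] at this
    exact zero_ne_one this
  have h10 : x.1 0 0 = 1 := by
    have : ∀ a : ZMod 2, a ≠ 0 → a = 1 := by decide
    exact this _ hx0
  apply Subtype.ext
  ext i k
  by_cases hik : i = k
  · subst hik
    rw [hsame i 0, h10]
    show 1 = (1 : Matrix (Fin 3) (Fin 3) (ZMod 2)) i i
    rw [one_apply_eq]
  · rw [hdiag i k hik]
    show 0 = (1 : Matrix (Fin 3) (Fin 3) (ZMod 2)) i k
    rw [one_apply_ne hik]

/-- order four -/
def u4 : Matrix.SpecialLinearGroup (Fin 3) (ZMod 2) := ⟨!![1, 1, 0; 0, 1, 1; 0, 0, 1], by decide⟩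

def a7 : Matrix.SpecialLinearGroup (Fin 3) (ZMod 2) := ⟨!![0, 0, 1; 1, 0, 1; 0, 1, 0], by decide⟩

def b3 : Matrix.SpecialLinearGroup (Fin 3) (ZMod 2) := ⟨!![1, 0, 0; 0, 0, 1; 0, 1, 1], by decide⟩

theorem orderOf_u4 : orderOf u4 = 4 := by
  have hf := Fact.mk Nat.prime_two
  show _ = 2 ^ (1 + 1)
  apply orderOf_eq_prime_pow <;> decide

theorem orderOf_a7 : orderOf a7 = 7 := by
  have hf := Fact.mk (by norm_num : Nat.Prime 7)
  apply orderOf_eq_prime <;> decide

theorem orderOf_b3 : orderOf b3 = 3 := by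
  have hf := Fact.mk Nat.prime_three
  apply orderOf_eq_prime <;> decide

theorem conj_a7 : b3 * a7 * b3⁻¹ = a7 ^ 2 := by
  rw [mul_inv_eq_iff_eq_mul]
  decide

theorem ord_four (F : Type*) [Field F] [CharP F 2] : Ord (P3 F) 4 :=
  ⟨j F u4, by rw [orderOf_injective _ (j_injective F), orderOf_u4]⟩

theorem notEven (F : Type*) [Field F] [CharP F 2] : NotEven (P3 F) := by
  right
  have hcard : Nat.card (zpowers (j F a7)) = 7 := by
    rw [Nat.card_zpowers, orderOf_injective _ (j_injective F), orderOf_a7]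
  have hc1 : ∀ n : ℤ, j F b3 * (j F a7) ^ n * (j F b3)⁻¹ = ((j F a7) ^ n) ^ 2 := by
    intro n
    rw [← conj_zpow, ← map_inv, ← map_mul, ← map_mul, conj_a7, map_pow, ← zpow_natCast, ← zpow_natCast,
      ← _root_.zpow_mul, ← _root_.zpow_mul, mul_comm]
  refine ⟨zpowers (j F a7), j F b3, 3, Or.inl rfl, ?_, ?_, ?_, ?_, ?_⟩
  · rw [orderOf_injective _ (j_injective F), orderOf_b3]
  · intro h
    rw [h, Subgroup.card_bot] at hcard
    norm_num at hcard
  · rw [hcard]
    decide
  · rintro e ⟨n, rfl⟩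
    show j F b3 * (j F a7) ^ n * (j F b3)⁻¹ ∈ _
    rw [hc1]
    exact Subgroup.pow_mem _ (Subgroup.zpow_mem _ (Subgroup.mem_zpowers _) _) _
  · rintro i hi0 hi3 e he h
    obtain ⟨n, rfl⟩ := he
    have h' : (j F b3) ^ i * (j F a7) ^ n * ((j F b3) ^ i)⁻¹ = (j F a7) ^ n := h
    show (j F a7) ^ n = 1
    have h7 : ((j F a7) ^ n) ^ 7 = 1 := by
      rw [← zpow_natCast, ← _root_.zpow_mul, mul_comm, _root_.zpow_mul, zpow_natCast, ← map_pow]
      have : a7 ^ 7 = 1 := by
        have := pow_orderOf_eq_one a7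
        rwa [orderOf_a7] at this
      rw [this, map_one, _root_.one_zpow]
    set y := (j F a7) ^ n with hy
    interval_cases i
    · rw [pow_one, hc1, ← hy, pow_two] at h'
      exact mul_left_cancel (h'.trans (mul_one y).symm)
    · have e2 : (j F b3) ^ 2 * y * ((j F b3) ^ 2)⁻¹ = y ^ 4 := by
        have e3 : (j F b3) ^ 2 * y * ((j F b3) ^ 2)⁻¹ = j F b3 * (j F b3 * y * (j F b3)⁻¹) * (j F b3)⁻¹ := by
          rw [pow_two, _root_.mul_inv_rev]
          simp only [mul_assoc]
        rw [e3, hy, hc1, ← zpow_natCast, ← _root_.zpow_mul, hc1, ← zpow_natCast, ← _root_.zpow_mul, ← zpow_natCast, ← _root_.zpow_mul]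
        congr 1
        push_cast
        ring
      rw [e2] at h'
      have h3 : y ^ 3 = 1 := by
        have : y * y ^ 3 = y * 1 := by rw [mul_one, ← pow_succ']; exact h'
        exact mul_left_cancel this
      calc y = y ^ 7 * (y ^ 3)⁻¹ * (y ^ 3)⁻¹ := by group
        _ = 1 := by rw [h7, h3]; simp

end two

end P3

end Cfsg.Agent.H577
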