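import Cfsg.Agent.H577.Psl34

/-!
# `Few` groups between `PSL(3, 4)` and its automorphism group
-/

set_option autoImplicit false
set_option linter.unusedSectionVars false

namespace Cfsg.Agent.H577

open Matrix Subgroup
open Cfsg.Agent.ClassicalGeometry.AutPSL.Root (pr pr_surjective exists_smul_of_pr_eq)
open Cfsg.Agent.ClassicalGeometry.AutPSL.Auto (cj fld lift itr coe_cj coe_fld_apply lift_pr coe_itr itr_mul_itr)
open Cfsg.Agent.ClassicalGeometry.AutPSL.Main (cj_eq_one_of_scalar injective_aux surj_two surj_three not_graph)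

namespace P3

variable {F : Type*} [Field F]

/-- `diag(d, 1, 1)` -/
def D : Fˣ →* GL (Fin 3) F where
  toFun d := ⟨!![(d : F), 0, 0; 0, 1, 0; 0, 0, 1], !![((d⁻¹ : Fˣ) : F), 0, 0; 0, 1, 0; 0, 0, 1], by
      ext i k
      fin_cases i <;> fin_cases k <;> simp [Matrix.mul_apply, Fin.sum_univ_three], by
      ext i k
      fin_cases i <;> fin_cases k <;> simp [Matrix.mul_apply, Fin.sum_univ_three]⟩
  map_one' := by
    apply Units.ext
    ext i k
    fin_cases i <;> fin_cases k <;> simp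
  map_mul' a b := by
    apply Units.ext
    show !![((a * b : Fˣ) : F), 0, 0; 0, 1, 0; 0, 0, 1] =
      !![(a : F), 0, 0; 0, 1, 0; 0, 0, 1] * !![(b : F), 0, 0; 0, 1, 0; 0, 0, 1]
    ext i k
    fin_cases i <;> fin_cases k <;> simp [Matrix.mul_apply, Fin.sum_univ_three]

theorem D_coe (d : Fˣ) : (D d : Matrix (Fin 3) (Fin 3) F) = !![(d : F), 0, 0; 0, 1, 0; 0, 0, 1] := rfl

theorem D_inv_coe (d : Fˣ) : ((D d)⁻¹ : GL (Fin 3) F).1 = !![((d⁻¹ : Fˣ) : F), 0, 0; 0, 1, 0; 0, 0, 1] := rfl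

theorem det_D (d : Fˣ) : (D d : Matrix (Fin 3) (Fin 3) F).det = d := by
  rw [D_coe, det_fin_three]
  simp

/-- embedding of `2 × 2` matrices -/
def em (a b c d : F) (h : a * d - b * c = 1) : SL3 F := ⟨!![1, 0, 0; 0, a, b; 0, c, d], by
  rw [det_fin_three]
  simp
  linear_combination h⟩

theorem em_mul {a b c d a' b' c' d' : F} {h : a * d - b * c = 1} {h' : a' * d' - b' * c' = 1} :
    em a b c d h * em a' b' c' d' h' =
      em (a * a' + b * c') (a * b' + b * d') (c * a' + d * c') (c * b' + d * d')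
        (by linear_combination (a' * d' - b' * c') * h + h') := by
  apply Subtype.ext
  show !![1, 0, 0; 0, a, b; 0, c, d] * !![1, 0, 0; 0, a', b'; 0, c', d'] = !![1, 0, 0; 0, _, _; 0, _, _]
  ext i k
  fin_cases i <;> fin_cases k <;> simp [Matrix.mul_apply, Fin.sum_univ_three]

theorem em_one : (1 : SL3 F) = em 1 0 0 1 (by ring) := by
  apply Subtype.ext
  show (1 : Matrix (Fin 3) (Fin 3) F) = !![1, 0, 0; 0, 1, 0; 0, 0, 1]
  ext i k
  fin_cases i <;> fin_cases k <;> simp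

theorem em_ext {a b c d a' b' c' d' : F} {h : a * d - b * c = 1} {h' : a' * d' - b' * c' = 1}
    (h1 : a = a') (h2 : b = b') (h3 : c = c') (h4 : d = d') : em a b c d h = em a' b' c' d' h' := by
  subst h1; subst h2; subst h3; subst h4; rfl

theorem em_inv {a b c d : F} {h : a * d - b * c = 1} :
    (em a b c d h)⁻¹ = em d (-b) (-c) a (by linear_combination h) := by
  rw [inv_eq_iff_mul_eq_one, em_mul, em_one]
  apply em_ext
  · linear_combination h
  · ring
  · ring
  · linear_combination h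

/-- `D d` commutes with the embedded matrices -/
theorem cj_D_em (x : Fˣ) {a b c d : F} {h : a * d - b * c = 1} : cj (D x) (em a b c d h) = em a b c d h := by
  apply Subtype.ext
  rw [coe_cj, D_inv_coe, D_coe]
  show !![(x : F), 0, 0; 0, 1, 0; 0, 0, 1] * !![1, 0, 0; 0, a, b; 0, c, d] * !![((x⁻¹ : Fˣ) : F), 0, 0; 0, 1, 0; 0, 0, 1] =
    !![1, 0, 0; 0, a, b; 0, c, d]
  ext i k
  fin_cases i <;> fin_cases k <;> simp [Matrix.mul_apply, Fin.sum_univ_three]

theorem fld_em (σ : F ≃+* F) {a b c d : F} {h : a * d - b * c = 1} :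
    fld σ (em a b c d h) = em (σ a) (σ b) (σ c) (σ d) (by rw [← map_mul, ← map_mul, ← map_sub, h, map_one]) := by
  apply Subtype.ext
  show ((σ : F →+* F).mapMatrix !![1, 0, 0; 0, a, b; 0, c, d]) = !![1, 0, 0; 0, σ a, σ b; 0, σ c, σ d]
  ext i k
  fin_cases i <;> fin_cases k <;> simp

theorem itr_em {a b c d : F} {h : a * d - b * c = 1} :
    itr (em a b c d h) = em d (-c) (-b) a (by linear_combination h) := by
  apply Subtype.ext
  rw [coe_itr, em_inv]
  show (!![1, 0, 0; 0, d, -b; 0, -c, a])ᵀ = !![1, 0, 0; 0, d, -c; 0, -b, a]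
  ext i k
  fin_cases i <;> fin_cases k <;> rfl

/-- the twisting matrix -/
def J (F : Type*) [Field F] : SL3 F := em 0 1 (-1) 0 (by ring)

/-- the element of order three -/
def c3 (F : Type*) [Field F] : SL3 F := em 0 1 (-1) (-1) (by ring)

/-- the twisted graph-field automorphism -/
def gr (σ : F ≃+* F) : MulAut (SL3 F) := cj (sg (J F)) * fld σ * itr

theorem gr_apply (σ : F ≃+* F) (x : SL3 F) : gr σ x = J F * fld σ (itr x) * (J F)⁻¹ := rfl

theorem gr_em (σ : F ≃+* F) {a b c d : F} {h : a * d - b * c = 1} :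
    gr σ (em a b c d h) = em (σ a) (σ b) (σ c) (σ d) (by rw [← map_mul, ← map_mul, ← map_sub, h, map_one]) := by
  rw [gr_apply, itr_em, fld_em, J, em_inv, em_mul, em_mul]
  apply em_ext <;> simp

theorem fld_itr (σ : F ≃+* F) (x : SL3 F) : fld σ (itr x) = itr (fld σ x) := by
  apply Subtype.ext
  ext i k
  rw [coe_itr, ← map_inv]
  rfl

theorem itr_itr (x : SL3 F) : itr (itr x) = x := congrArg (fun φ : MulAut (SL3 F) => φ x) itr_mul_itr

theorem gr_mul_gr [CharP F 2] {σ : F ≃+* F} (hσ : σ * σ = 1) : gr σ * gr σ = 1 := by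
  have h2 : (2 : F) = 0 := CharTwo.two_eq_zero
  have hJJ : J F * J F = 1 := by
    rw [J, em_mul, em_one]
    apply em_ext
    · linear_combination -h2
    · ring
    · ring
    · linear_combination -h2
  have hJ : itr (J F) = J F := by
    rw [J, itr_em]
    apply em_ext <;> simp
  have hJ' : fld σ (J F) = J F := by
    rw [J, fld_em]
    apply em_ext <;> simp
  apply MulEquiv.ext
  intro x
  have hss : ∀ y : SL3 F, fld σ (fld σ y) = y := by
    intro y
    have : fld σ * fld σ = (1 : MulAut (SL3 F)) := by rw [← map_mul, hσ, map_one]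
    exact congrArg (fun φ : MulAut (SL3 F) => φ y) this
  show gr σ (gr σ x) = x
  rw [gr_apply, gr_apply, map_mul, map_mul, map_mul, map_mul, map_inv, map_inv, hJ, hJ', ← fld_itr, hss, itr_itr]
  calc J F * (J F * x * (J F)⁻¹) * (J F)⁻¹ = (J F * J F) * x * (J F * J F)⁻¹ := by group
    _ = x := by rw [hJJ]; simp

theorem fld_cj_D (σ : F ≃+* F) (d : Fˣ) : fld σ * cj (D d) = cj (D (Units.map (σ : F →* F) d)) * fld σ := by
  rw [fld_mul_cj]
  congr 2
  apply Units.ext
  show ((σ : F →+* F).mapMatrix !![(d : F), 0, 0; 0, 1, 0; 0, 0, 1]) = !![σ (d : F), 0, 0; 0, 1, 0; 0, 0, 1]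
  ext i k
  fin_cases i <;> fin_cases k <;> simp

theorem itr_cj_D (d : Fˣ) : itr * cj (D d) = cj (D d⁻¹) * (itr : MulAut (SL3 F)) := by
  apply MulEquiv.ext
  intro x
  apply Subtype.ext
  show (((cj (D d) x)⁻¹ : SL3 F) : Matrix (Fin 3) (Fin 3) F)ᵀ = (cj (D d⁻¹) (itr x)).1
  rw [← map_inv, coe_cj, coe_cj, coe_itr, D_inv_coe, D_inv_coe, D_coe, D_coe, inv_inv, transpose_mul, transpose_mul,
    ← mul_assoc]
  congr 2
  · ext i k
    fin_cases i <;> fin_cases k <;> rfl
  · ext i k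
    fin_cases i <;> fin_cases k <;> rfl

theorem cj_J_D (d : Fˣ) : cj (sg (J F)) * cj (D d) = cj (D d) * cj (sg (J F)) := by
  rw [← map_mul, ← map_mul]
  congr 1
  apply Units.ext
  rw [Units.val_mul, Units.val_mul, D_coe]
  show !![1, 0, 0; 0, 0, 1; 0, -1, 0] * !![(d : F), 0, 0; 0, 1, 0; 0, 0, 1] =
    !![(d : F), 0, 0; 0, 1, 0; 0, 0, 1] * !![1, 0, 0; 0, 0, 1; 0, -1, 0]
  ext i k
  fin_cases i <;> fin_cases k <;> simp [Matrix.mul_apply, Fin.sum_univ_three]

theorem gr_cj_D (σ : F ≃+* F) (d : Fˣ) :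
    gr σ * cj (D d) = cj (D (Units.map (σ : F →* F) d⁻¹)) * gr σ := by
  unfold gr
  rw [mul_assoc, itr_cj_D, mul_assoc (cj (sg (J F))), ← mul_assoc (fld σ), fld_cj_D, mul_assoc (cj (D _)),
    ← mul_assoc (cj (sg (J F))), cj_J_D]
  simp only [mul_assoc]

end P3

end Cfsg.Agent.H577
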