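import Cfsg.Agent.H577.PslTop
import Cfsg.Agent.ThreePrime.SzDataExists
import Cfsg.Agent.OddCyclic.ClaimC.SzIso

/-!
# `Few` groups and the Suzuki groups
-/

set_option autoImplicit false
set_option linter.unusedSectionVars false

namespace Cfsg.Agent.H577

open Subgroup
open Cfsg.Agent.ThreePrime

namespace Suz

variable {J : Type*} [Group J] {F : Type*} [Field F]

/-- order four -/
theorem orderOf_u (R : SzRel.Rel J F) : orderOf (R.u 1 0) = 4 := by
  have hf := Fact.mk Nat.prime_two
  show _ = 2 ^ (1 + 1)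
  apply orderOf_eq_prime_pow
  · rw [pow_one, pow_two, R.u_mul_self, map_one, mul_one]
    exact R.u_ne_one one_ne_zero
  · exact R.pow_four (R.u_mem 1 0)

theorem ord_four (R : SzRel.Rel J F) : Ord J 4 := ⟨_, orderOf_u R⟩

theorem ord_torus [Fintype F] (R : SzRel.Rel J F) : Ord J (Fintype.card F - 1) := by
  classical
  obtain ⟨g, hg⟩ := IsCyclic.exists_generator (α := Fˣ)
  have h1 : orderOf g = Fintype.card F - 1 := by
    rw [orderOf_eq_card_of_forall_mem_zpowers hg, Nat.card_eq_fintype_card, Fintype.card_units]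
  let dh : Fˣ →* J := { toFun := R.d, map_one' := R.d_one, map_mul' := fun k l => (R.d_mul k l).symm }
  have hinj : Function.Injective dh := fun k l h => R.d_inj h
  exact ⟨dh g, by rw [orderOf_injective _ hinj, h1]⟩

/-- all involutions are conjugate to `u 0 1` -/
theorem conj_involution [Finite J] [Fintype F] (R : SzRel.Rel J F) {m : ℕ} (hm : 1 ≤ m)
    (hF : Fintype.card F = 2 ^ (2 * m + 1)) (z : J) (hz : orderOf z = 2) :
    ∃ g : J, g * z * g⁻¹ = R.u 0 1 := by
  have hf := Fact.mk Nat.prime_two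
  obtain ⟨P, hP⟩ := R.exists_sylow_eq hm hF
  have hzp : IsPGroup 2 (zpowers z) := IsPGroup.of_card (n := 1) (by rw [Nat.card_zpowers, hz, pow_one])
  obtain ⟨Q, hQ⟩ := hzp.exists_le_sylow
  obtain ⟨g, hg⟩ := MulAction.exists_smul_eq J Q P
  have h1 : g * z * g⁻¹ ∈ R.T := by
    rw [← hP, ← hg, Sylow.coe_subgroup_smul, Subgroup.mem_pointwise_smul_iff_inv_smul_mem]
    have : (MulAut.conj g)⁻¹ • (g * z * g⁻¹) = z := by
      rw [← map_inv]
      show g⁻¹ * (g * z * g⁻¹) * g⁻¹⁻¹ = z
      group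
    rw [this]
    exact hQ (mem_zpowers z)
  obtain ⟨a, b, hab⟩ := h1
  have h2 : R.u a b * R.u a b = 1 := by
    rw [← hab]
    have : z * z = 1 := by rw [← pow_two, ← hz, pow_orderOf_eq_one]
    calc g * z * g⁻¹ * (g * z * g⁻¹) = g * (z * z) * g⁻¹ := by group
      _ = 1 := by rw [this]; group
  rw [R.u_sq_iff] at h2
  subst h2
  have hb : b ≠ 0 := by
    rintro rfl
    rw [R.u_zero] at hab
    have : z = 1 := by
      calc z = g⁻¹ * (g * z * g⁻¹) * g := by group
        _ = 1 := by rw [hab]; group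
    rw [this, orderOf_one] at hz
    exact absurd hz (by norm_num)
  -- conjugate by the torus
  have hθ : Function.Surjective R.θ := R.theta_surj
  obtain ⟨k, hk⟩ := hθ b⁻¹
  have hk0 : k ≠ 0 := by
    rintro rfl
    rw [map_zero] at hk
    exact inv_ne_zero hb hk.symm
  refine ⟨R.d (Units.mk0 k hk0) * g, ?_⟩
  have h3 : R.d (Units.mk0 k hk0) * g * z * (R.d (Units.mk0 k hk0) * g)⁻¹ =
      R.d (Units.mk0 k hk0) * (g * z * g⁻¹) * (R.d (Units.mk0 k hk0))⁻¹ := by group
  rw [h3, hab, R.conj_d, Units.val_mk0, hk, zero_mul, zero_mul, mul_inv_cancel₀ hb]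

/-- **Extensions of the Suzuki groups.** -/
theorem eq_top {X : Type*} [Group X] [Finite X] (T : Subgroup X) [hTn : T.Normal] (hc : centralizer (T : Set X) = ⊥)
    (hX : Few X) (hT : Cfsg.Lie.IsoSuzuki T) : T = ⊤ := by
  have hf := Fact.mk Nat.prime_two
  obtain ⟨F, iF, iF', m, hm, hF, ⟨R⟩⟩ := SzRel.exists_rel hT
  set t : T := R.u 0 1 with ht
  have h4 : Ord X 4 := (ord_four R).of_subgroup
  have h2 : Ord X 2 := h4.dvd (by norm_num)
  have ht1 : t ≠ 1 := R.u_ne_one one_ne_zero
  have htt : t * t = 1 := by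
    rw [ht, R.u_mul_self, zero_mul, R.u_zero]
  have hto : orderOf (t : X) = 2 := by
    rw [Subgroup.orderOf_coe]
    exact orderOf_eq_prime (by rw [pow_two]; exact htt) ht1
  rw [eq_top_iff]
  intro x _
  -- `x t x⁻¹` is conjugate to `t` in `T`
  have hxt : x * (t : X) * x⁻¹ ∈ T := hTn.conj_mem _ t.2 x
  have hxo : orderOf (⟨x * (t : X) * x⁻¹, hxt⟩ : T) = 2 := by
    rw [← Subgroup.orderOf_coe]
    show orderOf (x * (t : X) * x⁻¹) = 2
    rw [← hto]
    exact (orderOf_injective (MulAut.conj x).toMonoidHom (MulAut.conj x).injective (t : X))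
  obtain ⟨g, hg⟩ := conj_involution R hm hF _ hxo
  -- `c = g x` centralizes `t`
  set c : X := (g : X) * x with hcdef
  have hct : c * (t : X) = t * c := by
    have h1 := congrArg Subtype.val hg
    have h3 : (g : X) * (x * (t : X) * x⁻¹) * (g : X)⁻¹ = t := h1
    calc c * (t : X) = ((g : X) * (x * (t : X) * x⁻¹) * (g : X)⁻¹) * c := by rw [hcdef]; group
      _ = t * c := by rw [h3]
  -- the order of `c` is a power of two
  have hcp : ∃ n : ℕ, orderOf c = 2 ^ n := by
    have h0 : orderOf c ≠ 0 := (orderOf_pos c).ne'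
    refine ⟨(orderOf c).primeFactorsList.length, ?_⟩
    apply Nat.eq_prime_pow_of_unique_prime_dvd h0
    intro r hr hrd
    by_contra hr2
    set y := c ^ (orderOf c / r) with hy
    have hyo : orderOf y = r := orderOf_pow_orderOf_div h0 hrd
    have hyt : Commute y (t : X) := by
      have : Commute c (t : X) := hct
      exact this.pow_left _
    have h6 : Ord X (r * 2) := by
      have := ord_mul hyt (by rw [hyo, hto]; exact (Nat.coprime_primes hr Nat.prime_two).2 hr2)
      rwa [hyo, hto] at this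
    exact hX.false Nat.prime_two h2 h4 h6 (by norm_num) (by
      intro h
      apply hr2
      omega) (by
      intro h
      have := hr.one_lt
      omega) (by norm_num) (by norm_num) (dvd_mul_left _ _)
  obtain ⟨n, hn⟩ := hcp
  have hinner := R.inner hm hF (MulAut.conjNormal c) ⟨n, by
    rw [← map_pow, ← hn, pow_orderOf_eq_one, map_one]⟩
  obtain ⟨j, hj⟩ := hinner
  have hcj : (j : X)⁻¹ * c ∈ centralizer (T : Set X) := by
    rw [mem_centralizer_iff]
    intro s hs
    have h1 := congrArg (fun φ : MulAut T => ((φ ⟨s, hs⟩ : T) : X)) hj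
    simp only [MulAut.conjNormal_apply] at h1
    have h3 : c * s * c⁻¹ = (j : X) * s * (j : X)⁻¹ := h1
    calc s * ((j : X)⁻¹ * c) = (j : X)⁻¹ * ((j : X) * s * (j : X)⁻¹) * c := by group
      _ = (j : X)⁻¹ * (c * s * c⁻¹) * c := by rw [h3]
      _ = (j : X)⁻¹ * c * s := by group
  rw [hc, mem_bot, inv_mul_eq_one] at hcj
  have : x = (g : X)⁻¹ * (j : X) := by rw [hcj, hcdef]; group
  rw [this]
  exact T.mul_mem (T.inv_mem g.2) j.2

end Suz

end Cfsg.Agent.H577
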